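import Mathlib
import Cfsg.Agent.KFacts.RgdLieCharP
import Cfsg.Agent.KFacts.RgdSyl
import Cfsg.Agent.H851.SimsRgd
import Cfsg.Agent.H227.WeakChar
import Cfsg.Agent.H586.GenAut
import Cfsg.Agent.H940.FrattiniAut

/-!
# Four-groups centralising a subgroup with Sylow `3`-subgroups of order `27` (helper234, for S3140)
-/

set_option autoImplicit false
set_option linter.unusedSectionVars false

namespace Cfsg.Agent.H234.NoKlein

open Subgroup Cfsg Cfsg.Agent.KFacts.RgdFilt

section closed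

variable {X : Type*} [Group X] [Finite X] {p : ℕ} [hp : Fact p.Prime]

theorem inv_mem_of {α : MulAut X} {Q : Subgroup X} (h : ∀ x ∈ Q, α x ∈ Q) {x : X} (hx : x ∈ Q) : α.symm x ∈ Q := by
  have h1 : Q.map α.toMonoidHom = Q := by
    refine Subgroup.eq_of_le_of_card_ge ?_ ?_
    · rintro _ ⟨y, hy, rfl⟩
      exact h y hy
    · rw [Subgroup.card_map_of_injective α.injective]
  rw [← h1] at hx
  obtain ⟨y, hy, rfl⟩ := hx
  have : α.symm (α.toMonoidHom y) = y := α.symm_apply_apply y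
  rw [this]
  exact hy

theorem exists_closed {R : Subgroup X} (hR : IsPGroup p R) (S : Set (MulAut X)) (hS : ∀ α ∈ S, ∀ x ∈ R, α x ∈ R) :
    ∃ Q : Subgroup X, IsPGroup p Q ∧ R ≤ Q ∧ (∀ α ∈ S, ∀ x ∈ Q, α x ∈ Q) ∧
      pCoreOf p (normalizer (Q : Set X)) = Q := by
  obtain ⟨Q, hRQ, hQ⟩ := (Set.toFinite {Q : Subgroup X | IsPGroup p Q ∧ R ≤ Q ∧ ∀ α ∈ S, ∀ x ∈ Q, α x ∈ Q}).exists_le_maximal
    (a := R) ⟨hR, le_rfl, hS⟩
  obtain ⟨hQ1, hQ2, hQ3⟩ := hQ.prop
  refine ⟨Q, hQ1, hQ2, hQ3, le_antisymm ?_ (H227.Weak.le_pCoreOf hQ1 le_normalizer le_rfl)⟩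
  have hle : Q ≤ pCoreOf p (normalizer (Q : Set X)) := H227.Weak.le_pCoreOf hQ1 le_normalizer le_rfl
  refine hQ.le_of_ge ⟨H227.Weak.isPGroup_pCoreOf _, hQ2.trans hle, fun α hα x hx => ?_⟩ hle
  -- `α` stabilises the normalizer
  have hN : ∀ y ∈ normalizer (Q : Set X), α y ∈ normalizer (Q : Set X) := by
    intro y hy
    rw [mem_normalizer_iff] at hy ⊢
    intro z
    have h1 := hy (α.symm z)
    constructor
    · intro hz
      have h2 := h1.1 (inv_mem_of (hQ3 α hα) hz)
      have h3 := hQ3 α hα _ h2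
      simpa using h3
    · intro hz
      have h2 := inv_mem_of (hQ3 α hα) hz
      have h3 : α.symm (α y * z * (α y)⁻¹) = y * α.symm z * y⁻¹ := by simp
      rw [h3] at h2
      have h4 := hQ3 α hα _ (h1.2 h2)
      simpa using h4
  have h1 : (pCoreOf p (normalizer (Q : Set X))).map α.toMonoidHom ≤ pCoreOf p (normalizer (Q : Set X)) := by
    refine H227.Weak.le_pCoreOf ((H227.Weak.isPGroup_pCoreOf _).map _) ?_ ?_
    · rintro _ ⟨y, hy, rfl⟩
      exact hN y (H227.Weak.pCoreOf_le _ _ hy)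
    · intro y hy
      have hn : (normalizer (Q : Set X)) ≤ normalizer ((pCoreOf p (normalizer (Q : Set X)) : Subgroup X) : Set X) :=
        le_normalizer.trans (H227.Weak.normalizer_le_normalizer_pCoreOf p _)
      have hy' : α.symm y ∈ normalizer ((pCoreOf p (normalizer (Q : Set X)) : Subgroup X) : Set X) :=
        hn (inv_mem_of hN hy)
      rw [mem_normalizer_iff] at hy' ⊢
      intro z
      constructor
      · rintro ⟨w, hw, rfl⟩
        refine ⟨α.symm y * w * (α.symm y)⁻¹, (hy' w).1 hw, ?_⟩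
        show α _ = y * α w * y⁻¹
        simp
      · rintro ⟨w, hw, hwz⟩
        have hwz' : α w = y * z * y⁻¹ := hwz
        refine ⟨α.symm z, (hy' _).2 ?_, by simp⟩
        have h3 : α.symm y * α.symm z * (α.symm y)⁻¹ = w := by
          apply α.injective
          rw [hwz']
          simp
        rw [h3]
        exact hw
  exact h1 ⟨x, hx, rfl⟩

theorem cent_le [IsSimpleGroup X] (hG : HasFilt p X) (hc : ∃ a b : X, a * b ≠ b * a) {Q : Subgroup X} (hQ : IsPGroup p Q) (hQ1 : Q ≠ ⊥)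
    (hcl : pCoreOf p (normalizer (Q : Set X)) = Q) : centralizer (Q : Set X) ≤ Q := by
  intro c hcQ
  have h1 := hG.local_char hc hQ hQ1
  have hcN : c ∈ normalizer (Q : Set X) := centralizer_le_normalizer _ hcQ
  have h2 : (⟨c, hcN⟩ : ↥(normalizer (Q : Set X))) ∈ pCore p ↥(normalizer (Q : Set X)) := by
    refine h1 ?_
    rw [mem_centralizer_iff]
    intro r hr
    have h3 : (r : X) ∈ pCoreOf p (normalizer (Q : Set X)) := ⟨r, hr, rfl⟩
    rw [hcl] at h3
    exact Subtype.ext (mem_centralizer_iff.1 hcQ r h3)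
  have h4 : c ∈ pCoreOf p (normalizer (Q : Set X)) := ⟨_, h2, rfl⟩
  rwa [hcl] at h4

open CoxeterSystem Cfsg.Agent.ChevalleyStructure.CoxeterGeom Cfsg.Agent.Tits.Roots Cfsg.Agent.Tits.Core
  Cfsg.Agent.Nodes.LeviDec Cfsg.Agent.Nodes.Bruhat in
/-- a closed `p`-subgroup is normalised by a Sylow `p`-subgroup containing it -/
theorem exists_sylow (hG : HasFilt p X) {Q : Subgroup X} (hQ : IsPGroup p Q) (hQ1 : Q ≠ ⊥)
    (hcl : pCoreOf p (normalizer (Q : Set X)) = Q) : ∃ S : Sylow p X, Q ≤ S ∧ (S : Subgroup X) ≤ normalizer (Q : Set X) := by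
  have hG' := hG
  obtain ⟨l, M, A, h, T, n, Y, R, F, hW, hY, hF⟩ := hG'
  have hGG := GG_eq_top (T := T) hY
  obtain ⟨g, J, hJ, h1, h2⟩ := H851.SimsRgd.exists_par R (fun K hK hK1 => borel_tits_of_filt hF hY hK hK1) hQ1 hQ
    (fun N hN hNN hNp => by
      have := H227.Weak.le_pCoreOf hNp hN hNN
      rwa [hcl] at this)
  set U : Subgroup X := Nodes.BNOf.RGD.Sup Y (Nodes.BNOf.RGD.Pos M.toCoxeterSystem h) with hU
  have hpU : IsPGroup p ↥U := R.isPGroup_Upos
  have hndvd : ¬ p ∣ U.index := by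
    have := KFacts.RgdSyl.not_dvd_relIndex R
    rwa [hGG, Subgroup.relIndex_top_right] at this
  obtain ⟨P, hP⟩ : ∃ P : Sylow p X, (P : Subgroup X) = U := ⟨hpU.toSylow hndvd, rfl⟩
  have h3 : ((g • P : Sylow p X) : Subgroup X) ≤ normalizer (Q : Set X) := by
    rw [h1, Cfsg.Agent.Nodes.NormX.normalizer_cj]
    have h4 : U ≤ normalizer ((VJ M.toCoxeterSystem h Y J : Subgroup X) : Set X) := 
      (Nodes.BNOf.RGD.U_le_B.trans (B_le_PJ)).trans (PJ_le_normalizer_VJ R J)
    rw [Sylow.coe_subgroup_smul, hP]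
    exact Subgroup.map_mono h4
  refine ⟨g • P, ?_, h3⟩
  -- `Q` is a normal `p`-subgroup of its normalizer
  have h5 : Q ≤ normalizer (((g • P : Sylow p X) : Subgroup X) : Set X) ⊔ Q := le_sup_right
  have h6 : IsPGroup p ↥(((g • P : Sylow p X) : Subgroup X) ⊔ Q) := by
    refine IsPGroup.to_sup_of_normal_right' (g • P : Sylow p X).isPGroup' hQ h3
  have h7 := (g • P : Sylow p X).is_maximal' h6 le_sup_left
  rw [← h7]
  exact le_sup_right

end closed

section main

/-- the order of a `3`-subgroup of the automorphism group of a group of order `27` -/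
theorem not_dvd_mulAut {P : Type*} [Group P] [Finite P] (hP : Nat.card P = 27) : ¬ 81 ∣ Nat.card (MulAut P) := by
  haveI : Fact (Nat.Prime 3) := ⟨Nat.prime_three⟩
  have hP' : Nat.card P = 3 ^ 3 := by rw [hP]; norm_num
  have h1 : (frattini P).index ∣ 3 ^ 3 := by
    rw [← hP']
    exact (frattini P).index_dvd_card
  obtain ⟨r, hr, hr'⟩ := (Nat.dvd_prime_pow Nat.prime_three).1 h1
  have h2 := H940.card_mulAut_dvd hP' hr'
  intro h81
  have h3 := h81.trans h2
  clear h2 hr' h1 h81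
  interval_cases r
  all_goals
    revert h3
    simp only [Finset.prod_range_succ, Finset.prod_range_zero]
    norm_num

/-- the centre of a nonabelian group of order `27` -/
theorem card_center_le {P : Type*} [Group P] [Finite P] (hP : Nat.card P = 27) (hna : ∃ x y : P, x * y ≠ y * x) :
    Nat.card (center P) ≤ 3 := by
  haveI : Fact (Nat.Prime 3) := ⟨Nat.prime_three⟩
  have hP' : Nat.card P = 3 ^ 3 := by rw [hP]; norm_num
  have h1 : Nat.card (center P) ∣ 3 ^ 3 := by
    rw [← hP']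
    exact Subgroup.card_subgroup_dvd_card _
  obtain ⟨r, hr, hr'⟩ := (Nat.dvd_prime_pow Nat.prime_three).1 h1
  have h2 : ∀ (hi : (center P).index = 1 ∨ (center P).index = 3), False := by
    intro hi
    obtain ⟨x, y, hxy⟩ := hna
    apply hxy
    haveI : IsCyclic (P ⧸ center P) := by
      have h3 : Nat.card (P ⧸ center P) = (center P).index := (Subgroup.index_eq_card _).symm
      rcases hi with hi | hi
      · haveI : Subsingleton (P ⧸ center P) := by
          exact (Nat.card_eq_one_iff_unique.1 (h3.trans hi)).1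
        infer_instance
      · exact isCyclic_of_prime_card (h3.trans hi)
    exact commutative_of_cyclic_center_quotient (QuotientGroup.mk' (center P))
      (by rw [QuotientGroup.ker_mk']) x y
  have h4 := (center P).card_mul_index
  rw [hP, hr'] at h4
  rw [hr']
  by_contra hlt
  interval_cases r
  · norm_num at hlt
  · norm_num at hlt
  · exact h2 (Or.inr (by omega))
  · exact h2 (Or.inl (by omega))

variable {X : Type*} [Group X] [Finite X] [IsSimpleGroup X]

theorem mem_normalizer_of {A : Subgroup X} {x : X} (h : ∀ a ∈ A, x * a * x⁻¹ ∈ A) : x ∈ normalizer (A : Set X) := by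
  have h1 : ∀ y ∈ A, (MulAut.conj x) y ∈ A := h
  rw [mem_normalizer_iff]
  intro y
  refine ⟨h y, fun hy => ?_⟩
  have h2 := inv_mem_of (α := MulAut.conj x) h1 hy
  have h3 : (MulAut.conj x).symm (x * y * x⁻¹) = y := by
    rw [MulAut.conj_symm_apply]; group
  rwa [h3] at h2

theorem gen {V : Subgroup (MulAut X)} (hV : IsKleinFour ↥V) {Q : Subgroup X} (hQ : IsPGroup 3 Q)
    (hVQ : ∀ v ∈ V, ∀ x ∈ Q, v x ∈ Q) : Q ≤ closure {x | x ∈ Q ∧ ∃ a ∈ V, a ≠ 1 ∧ a x = x} := by
  haveI : Fact (Nat.Prime 3) := ⟨Nat.prime_three⟩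
  haveI : IsMulCommutative ↥V := ⟨⟨fun a b => by
    have h1 : ∀ x : ↥V, x * x = 1 := fun x => by
      have := hV.exponent_two
      have h2 := Monoid.pow_exponent_eq_one x
      rw [this, pow_two] at h2
      exact h2
    calc a * b = a * b * ((b * a) * (b * a)) := by rw [h1, mul_one]
      _ = a * (b * b) * a * (b * a) := by group
      _ = b * a := by rw [h1, mul_one, h1, one_mul]⟩⟩
  have hcard : Nat.card ↥V = 4 := hV.card_four
  obtain ⟨k, hk⟩ := IsPGroup.iff_card.1 hQ
  refine H586.GenAut.gen V ?_ Q hVQ ?_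
  · intro hc
    have h1 := hc.exponent_eq_card
    rw [hV.exponent_two, hcard] at h1
    omega
  · rw [hcard, hk]
    exact Nat.Coprime.pow_right _ (by norm_num)

theorem main (hG : HasFilt 3 X) (hc : ∃ a b : X, a * b ≠ b * a) {A P : Subgroup X} (hPA : P ≤ A)
    (hP27 : Nat.card P = 27) (hPna : ∃ x ∈ P, ∃ y ∈ P, x * y ≠ y * x)
    (hA : ∀ N : Subgroup X, N ≤ A → A ≤ normalizer (N : Set X) → IsPGroup 3 N → N = ⊥) (hA3 : ¬ IsPGroup 3 A)
    (hAut : ¬ 81 ∣ Nat.card (MulAut ↥A)) {V : Subgroup (MulAut X)} (hV : IsKleinFour ↥V)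
    (hfix : ∀ v ∈ V, ∀ a ∈ A, v a = a)
    (hn : ∀ v ∈ V, v ≠ 1 → ∀ g : X, v g = g → ∀ a ∈ A, g * a * g⁻¹ ∈ A) : ¬ 3 ^ 5 ∣ Nat.card X := by
  haveI : Fact (Nat.Prime 3) := ⟨Nat.prime_three⟩
  have hP3 : IsPGroup 3 P := IsPGroup.of_card (n := 3) (by rw [hP27]; norm_num)
  have hP1 : P ≠ ⊥ := by
    rintro rfl
    rw [Subgroup.card_bot] at hP27
    norm_num at hP27
  obtain ⟨Q, hQ3, hPQ, hVQ, hQc⟩ := exists_closed hP3 (V : Set (MulAut X)) (fun v hv x hx => by
    rw [hfix v hv x (hPA hx)]; exact hx)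
  have hQ1 : Q ≠ ⊥ := fun h => hP1 (by rw [h] at hPQ; exact le_bot_iff.1 hPQ)
  -- `Q` normalises `A`
  have hQA : Q ≤ normalizer (A : Set X) := by
    refine (gen hV hQ3 hVQ).trans ((closure_le _).2 ?_)
    rintro x ⟨-, v, hv, hv1, hvx⟩
    exact mem_normalizer_of (hn v hv hv1 x hvx)
  -- `Q` acts faithfully on `A`
  have hQ0 : Q ⊓ centralizer (A : Set X) = ⊥ := by
    by_contra hne
    obtain ⟨Q1, h13, hQ01, hinv, hcl⟩ := exists_closed (p := 3) (R := Q ⊓ centralizer (A : Set X)) (hQ3.to_le inf_le_left)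
      ((V : Set (MulAut X)) ∪ {α | ∃ a ∈ A, α = MulAut.conj a}) (by
        rintro α (hα | ⟨a, ha, rfl⟩) x ⟨hx, hxA⟩
        · refine ⟨hVQ α hα x hx, ?_⟩
          replace hxA : x ∈ centralizer (A : Set X) := hxA
          show α x ∈ centralizer (A : Set X)
          rw [mem_centralizer_iff] at hxA ⊢
          intro a ha
          have h1 := congrArg α (hxA a ha)
          rwa [map_mul, map_mul, hfix α hα a ha] at h1
        · have h1 : MulAut.conj a x = x := by
            replace hxA : x ∈ centralizer (A : Set X) := hxA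
            rw [MulAut.conj_apply, mem_centralizer_iff.1 hxA a ha]
            group
          rw [h1]
          exact ⟨hx, hxA⟩)
    have hQ11 : Q1 ≠ ⊥ := fun h => hne (by rw [h] at hQ01; exact le_bot_iff.1 hQ01)
    have hAQ1 : A ≤ normalizer (Q1 : Set X) := fun a ha =>
      mem_normalizer_of fun x hx => hinv (MulAut.conj a) (Or.inr ⟨a, ha, rfl⟩) x hx
    have hint : A ⊓ Q1 = ⊥ := by
      refine hA _ inf_le_left ?_ (h13.to_le inf_le_right)
      intro a ha
      refine mem_normalizer_of fun x hx => ?_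
      exact ⟨A.mul_mem (A.mul_mem ha hx.1) (A.inv_mem ha), (mem_normalizer_iff.1 (hAQ1 ha) x).1 hx.2⟩
    have hcent : Q1 ≤ centralizer (A : Set X) := by
      refine (gen hV h13 fun v hv x hx => hinv v (Or.inl hv) x hx).trans ((closure_le _).2 ?_)
      rintro x ⟨hx, v, hv, hv1, hvx⟩
      rw [SetLike.mem_coe, mem_centralizer_iff]
      intro a ha
      have h1 : a * x * a⁻¹ * x⁻¹ ∈ A ⊓ Q1 := by
        refine ⟨?_, Q1.mul_mem ((mem_normalizer_iff.1 (hAQ1 ha) x).1 hx) (Q1.inv_mem hx)⟩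
        have h2 := A.mul_mem ha (hn v hv hv1 x hvx a⁻¹ (A.inv_mem ha))
        have h3 : a * (x * a⁻¹ * x⁻¹) = a * x * a⁻¹ * x⁻¹ := by group
        rwa [h3] at h2
      rw [hint, mem_bot] at h1
      calc a * x = (a * x * a⁻¹ * x⁻¹) * (x * a) := by group
        _ = x * a := by rw [h1, one_mul]
    have hAc : A ≤ Q1 := by
      refine le_trans ?_ (cent_le hG hc h13 hQ11 hcl)
      intro a ha
      rw [mem_centralizer_iff]
      intro x hx
      exact (mem_centralizer_iff.1 (hcent hx) a ha).symm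
    exact hA3 (h13.to_le hAc)
  -- `|Q| ≤ 27`
  have hQP : P = Q := by
    obtain ⟨k, hk⟩ := IsPGroup.iff_card.1 hQ3
    have h1 : Function.Injective ((normalizerMonoidHom A).comp (inclusion hQA)) := by
      rw [injective_iff_map_eq_one]
      intro x hx
      have h2 : inclusion hQA x ∈ (normalizerMonoidHom A).ker := hx
      rw [normalizerMonoidHom_ker, mem_subgroupOf] at h2
      have h3 : (x : X) ∈ Q ⊓ centralizer (A : Set X) := ⟨x.2, h2⟩
      rw [hQ0, mem_bot] at h3
      exact Subtype.ext h3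
    have h2 : Nat.card Q ∣ Nat.card (MulAut ↥A) := Subgroup.card_dvd_of_injective _ h1
    have h3 : k ≤ 3 := by
      by_contra hk4
      push Not at hk4
      apply hAut
      have : (81 : ℕ) = 3 ^ 4 := by norm_num
      rw [this]
      exact (pow_dvd_pow 3 hk4).trans (hk ▸ h2)
    refine Subgroup.eq_of_le_of_card_ge hPQ ?_
    rw [hk, hP27]
    calc 3 ^ k ≤ 3 ^ 3 := Nat.pow_le_pow_right (by norm_num) h3
      _ = 27 := by norm_num
  subst hQP
  obtain ⟨S, hPS, hS⟩ := exists_sylow hG hQ3 hQ1 hQc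
  intro h5
  have h6 : 3 ^ 5 ∣ Nat.card (S : Subgroup X) := S.pow_dvd_card_of_pow_dvd_card h5
  have hC := cent_le hG hc hQ3 hQ1 hQc
  let φ : ↥(S : Subgroup X) →* MulAut ↥P := (normalizerMonoidHom P).comp (inclusion hS)
  have h7 : Nat.card (S : Subgroup X) = Nat.card φ.ker * Nat.card φ.range := by
    rw [← Subgroup.card_mul_index φ.ker, Subgroup.index_ker]
  have h8 : Nat.card φ.ker ≤ 3 := by
    refine le_trans ?_ (card_center_le hP27 (by
      obtain ⟨x, hx, y, hy, hxy⟩ := hPna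
      exact ⟨⟨x, hx⟩, ⟨y, hy⟩, fun h => hxy (congrArg Subtype.val h)⟩))
    have hmem : ∀ s : φ.ker, ((s : ↥(S : Subgroup X)) : X) ∈ centralizer (P : Set X) := by
      rintro ⟨s, hs⟩
      have h9 : inclusion hS s ∈ (normalizerMonoidHom P).ker := hs
      rw [normalizerMonoidHom_ker, mem_subgroupOf] at h9
      exact h9
    refine Nat.card_le_card_of_injective (fun s => (⟨⟨_, hC (hmem s)⟩, ?_⟩ : center ↥P)) ?_
    · rw [mem_center_iff]
      intro g
      exact Subtype.ext (mem_centralizer_iff.1 (hmem s) g g.2)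
    · intro s t hst
      apply Subtype.ext
      apply Subtype.ext
      have := congrArg (fun z : center ↥P => ((z : ↥P) : X)) hst
      exact this
  have h9 : Nat.card φ.range ≤ 27 := by
    have h10 : IsPGroup 3 φ.range := S.isPGroup'.of_surjective φ.rangeRestrict φ.rangeRestrict_surjective
    obtain ⟨k, hk⟩ := IsPGroup.iff_card.1 h10
    have h11 : k ≤ 3 := by
      by_contra hk4
      push Not at hk4
      apply not_dvd_mulAut hP27
      have : (81 : ℕ) = 3 ^ 4 := by norm_num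
      rw [this]
      exact (pow_dvd_pow 3 hk4).trans (hk ▸ Subgroup.card_subgroup_dvd_card φ.range)
    rw [hk]
    calc 3 ^ k ≤ 3 ^ 3 := Nat.pow_le_pow_right (by norm_num) h11
      _ = 27 := by norm_num
  have h10 := Nat.le_of_dvd Nat.card_pos h6
  rw [h7] at h10
  have h11 := Nat.mul_le_mul h8 h9
  norm_num at h10 h11
  omega

end main

end Cfsg.Agent.H234.NoKlein
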